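import Mathlib.RingTheory.Flat.Rank
import Mathlib.RingTheory.Etale.Field
import Mathlib.RingTheory.Etale.Pi
import Mathlib.RingTheory.Smooth.Flat
import Mathlib.FieldTheory.IsAlgClosed.AlgebraicClosure

/-!
# A finite etale algebra with exactly one geometric point over each geometric point is trivial

* `bijective_algebraMap_of_unique_lift`: if `C → D` is finite etale and every ring homomorphism
  from `C` to an algebraically closed field extends uniquely to `D`, then `C → D` is bijective.
-/

set_option autoImplicit false

universe u

open TensorProduct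

namespace Groth.Agent.Pi1.H420.BijCrit

/-- A finite etale algebra over an algebraically closed field with exactly one point has
dimension one. -/
lemma finrank_eq_one_of_unique_point (Ω : Type u) [Field Ω] [IsAlgClosed Ω] (E : Type u) [CommRing E]
    [Algebra Ω E] [Module.Finite Ω E] [Algebra.Etale Ω E]
    (h : ∃! _f : E →ₐ[Ω] Ω, True) : Module.finrank Ω E = 1 := by
  have : Finite (PrimeSpectrum E) := by
    have : IsArtinianRing E := isArtinian_of_tower Ω inferInstance
    infer_instance
  let e := Algebra.FormallyEtale.equivPiOfIsSepClosed Ω E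
  have hfr : Module.finrank Ω E = Nat.card (PrimeSpectrum E) := by
    have := Fintype.ofFinite (PrimeSpectrum E)
    rw [e.toLinearEquiv.finrank_eq, Module.finrank_pi, Nat.card_eq_fintype_card]
  rw [hfr, Nat.card_eq_one_iff_unique]
  obtain ⟨f, -, hf⟩ := h
  constructor
  · constructor
    intro p q
    by_contra hpq
    have h1 : (Pi.evalAlgHom Ω (fun _ : PrimeSpectrum E => Ω) p).comp e.toAlgHom =
        (Pi.evalAlgHom Ω (fun _ : PrimeSpectrum E => Ω) q).comp e.toAlgHom :=
      (hf _ trivial).trans (hf _ trivial).symm
    classical
    have h2 := DFunLike.congr_fun h1 (e.symm (Pi.single p 1))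
    simp [hpq] at h2
  · by_contra hne
    rw [not_nonempty_iff] at hne
    have : Subsingleton E := e.toEquiv.subsingleton
    have h0 : (0 : Ω) = 1 := by
      rw [← map_zero f, ← map_one f]
      exact congrArg f (Subsingleton.elim _ _)
    exact zero_ne_one h0

/-- If `C → D` is finite etale and every ring homomorphism from `C` to an algebraically closed
field extends uniquely to `D`, then `C → D` is bijective. -/
theorem bijective_algebraMap_of_unique_lift {C D : Type u} [CommRing C] [CommRing D] [Algebra C D]
    [Module.Finite C D] [Algebra.Etale C D]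
    (h : ∀ (Ω : Type u) [Field Ω] [IsAlgClosed Ω] (s : C →+* Ω),
      ∃! t : D →+* Ω, t.comp (algebraMap C D) = s) :
    Function.Bijective (algebraMap C D) := by
  apply Module.algebraMap_bijective_of_rankAtStalk
  funext p
  let Ω : Type u := AlgebraicClosure p.asIdeal.ResidueField
  let q : PrimeSpectrum Ω := ⊥
  have hq : q.comap (algebraMap C Ω) = p := by
    ext x
    simp only [PrimeSpectrum.comap_asIdeal, Ideal.mem_comap]
    change algebraMap C Ω x ∈ (⊥ : Ideal Ω) ↔ _
    rw [Ideal.mem_bot, IsScalarTower.algebraMap_apply C p.asIdeal.ResidueField Ω,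
      map_eq_zero_iff _ (algebraMap p.asIdeal.ResidueField Ω).injective]
    exact Ideal.algebraMap_residueField_eq_zero
  rw [← hq, ← Module.rankAtStalk_baseChange (S := Ω) (M := D) q, Module.rankAtStalk_eq_finrank_of_free]
  change Module.finrank Ω (Ω ⊗[C] D) = 1
  apply finrank_eq_one_of_unique_point
  obtain ⟨t, ht, htu⟩ := h Ω (algebraMap C Ω)
  let t' : D →ₐ[C] Ω := { t with commutes' := fun c => DFunLike.congr_fun ht c }
  refine ⟨Algebra.TensorProduct.lift (AlgHom.id Ω Ω) t' (fun _ _ => Commute.all _ _), trivial, ?_⟩
  intro f _
  apply Algebra.TensorProduct.ext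
  · ext
  · ext d
    have h1 : (f.toRingHom.comp
        (Algebra.TensorProduct.includeRight : D →ₐ[C] Ω ⊗[C] D).toRingHom) = t := by
      apply htu
      ext c
      change f (Algebra.TensorProduct.includeRight (algebraMap C D c)) = algebraMap C Ω c
      rw [AlgHom.commutes, IsScalarTower.algebraMap_apply C Ω (Ω ⊗[C] D), AlgHom.commutes]
      rfl
    have h2 := DFunLike.congr_fun h1 d
    change f (Algebra.TensorProduct.includeRight d) = _ 
    simpa [t'] using h2

end Groth.Agent.Pi1.H420.BijCrit
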