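import Groth.Agent.Pi1.H420.BijCrit
import Mathlib.RingTheory.TensorProduct.IncludeLeftSubRight
import Mathlib.RingTheory.Etale.Basic

/-!
# Invariants of a principal action on a finite etale algebra

Let `B` be a finite etale faithfully flat `A`-algebra and `τ : G → (B →ₐ[A] B)` a finite family of
`A`-algebra endomorphisms which is simply transitive on geometric fibres: for ring homomorphisms
`s t : B → Ω` to an algebraically closed field which agree on `A` there is a unique `g` with
`s ∘ τ g = t`. Then `B ⊗[A] B → (G → B)`, `x ⊗ y ↦ (x · τ g y)_g`, is bijective and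
every `b` with `τ g b = b` for all `g` lies in the image of `A`.
-/

set_option autoImplicit false

universe u v

open TensorProduct

namespace Groth.Agent.Pi1.H420.InvariantAlg

open Groth.Agent.Pi1.H420.BijCrit

/-- A ring homomorphism from a finite product to a field factors through a unique factor. -/
lemma exists_factor_pi {G : Type u} [Finite G] {B : Type u} [CommRing B] {Ω : Type u} [Field Ω]
    (t : (G → B) →+* Ω) : ∃ (g : G) (h : B →+* Ω), ∀ x, t x = h (x g) := by
  classical
  have := Fintype.ofFinite G
  have hsum : ∑ g, t (Pi.single g 1) = 1 := by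
    have h0 : ∑ g, (Pi.single g (1 : B) : G → B) = 1 := Finset.univ_sum_single (1 : G → B)
    rw [← map_sum, h0, map_one]
  obtain ⟨g, hg⟩ : ∃ g, t (Pi.single g 1) ≠ 0 := by
    by_contra! hc
    rw [Finset.sum_eq_zero (fun g _ => hc g)] at hsum
    exact zero_ne_one hsum
  have hidem : t (Pi.single g 1) * t (Pi.single g 1) = t (Pi.single g 1) := by
    rw [← map_mul, ← Pi.single_mul, one_mul]
  have hone : t (Pi.single g 1) = 1 := mul_left_cancel₀ hg (hidem.trans (mul_one _).symm)
  refine ⟨g,
    { toFun := fun b => t (Pi.single g b)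
      map_one' := hone
      map_mul' := fun a b => by rw [← map_mul, ← Pi.single_mul]
      map_zero' := by rw [Pi.single_zero, map_zero]
      map_add' := fun a b => by rw [← map_add, ← Pi.single_add] }, ?_⟩
  intro x
  change t x = t (Pi.single g (x g))
  have h1 : Pi.single g (x g) = x * Pi.single g 1 := by
    ext i
    by_cases hi : i = g
    · subst hi; simp
    · simp [hi]
  rw [h1, map_mul, hone, mul_one]

section

variable {A B G : Type u} [CommRing A] [CommRing B] [Algebra A B]

/-- The map `B ⊗[A] B → (G → B)`, `x ⊗ y ↦ (x · τ g y)_g`. -/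
noncomputable def theta (τ : G → (B →ₐ[A] B)) : B ⊗[A] B →ₐ[B] (G → B) :=
  Algebra.TensorProduct.lift (Algebra.ofId B (G → B))
    (AlgHom.pi τ) (fun _ _ => Commute.all _ _)

lemma theta_tmul (τ : G → (B →ₐ[A] B)) (x y : B) (g : G) :
    theta τ (x ⊗ₜ[A] y) g = x * τ g y := rfl

variable [Finite G] [Module.Finite A B] [Algebra.Etale A B]

omit [Module.Finite A B] in
/-- `B ⊗[A] B → (G → B)` is bijective when the action is simply transitive on geometric
fibres. -/
theorem theta_bijective (τ : G → (B →ₐ[A] B))
    (hτ : ∀ (Ω : Type u) [Field Ω] [IsAlgClosed Ω] (s t : B →+* Ω),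
      s.comp (algebraMap A B) = t.comp (algebraMap A B) →
        ∃! g : G, s.comp (τ g).toRingHom = t) :
    Function.Bijective (theta τ) := by
  let _ : Algebra (B ⊗[A] B) (G → B) := (theta τ).toRingHom.toAlgebra
  have hst : IsScalarTower B (B ⊗[A] B) (G → B) :=
    IsScalarTower.of_algebraMap_eq fun b => by
      change algebraMap B (G → B) b = theta τ (algebraMap B (B ⊗[A] B) b)
      rw [AlgHom.commutes]
  have h1 : Module.Finite (B ⊗[A] B) (G → B) := Module.Finite.of_restrictScalars_finite B _ _
  have h2 : Algebra.Etale (B ⊗[A] B) (G → B) := Algebra.Etale.of_restrictScalars B _ _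
  apply bijective_algebraMap_of_unique_lift (C := B ⊗[A] B) (D := G → B)
  intro Ω _ _ s
  let s1 : B →+* Ω := s.comp (algebraMap B (B ⊗[A] B))
  let s2 : B →+* Ω := s.comp (Algebra.TensorProduct.includeRight : B →ₐ[A] B ⊗[A] B).toRingHom
  have hs : s1.comp (algebraMap A B) = s2.comp (algebraMap A B) := by
    ext a
    change s (algebraMap B (B ⊗[A] B) (algebraMap A B a)) =
      s (Algebra.TensorProduct.includeRight (algebraMap A B a))
    rw [AlgHom.commutes, ← IsScalarTower.algebraMap_apply]
  have hext : ∀ f : B ⊗[A] B →+* Ω, f.comp (algebraMap B (B ⊗[A] B)) = s1 →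
      f.comp (Algebra.TensorProduct.includeRight : B →ₐ[A] B ⊗[A] B).toRingHom = s2 → f = s := by
    intro f h1 h2
    apply RingHom.ext
    intro x
    induction x with
    | zero => simp
    | add x y hx hy => rw [map_add, map_add, hx, hy]
    | tmul x y =>
      have hxy : x ⊗ₜ[A] y = algebraMap B (B ⊗[A] B) x * Algebra.TensorProduct.includeRight y := by
        simp
      rw [hxy, map_mul, map_mul]
      exact congrArg₂ (· * ·) (DFunLike.congr_fun h1 x) (DFunLike.congr_fun h2 y)
  obtain ⟨g, hg, hgu⟩ := hτ Ω s1 s2 hs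
  refine ⟨s1.comp (Pi.evalRingHom (fun _ : G => B) g), ?_, ?_⟩
  · apply hext
    · ext b
      change s1 (theta τ (algebraMap B (B ⊗[A] B) b) g) = s1 b
      rw [AlgHom.commutes]
      rfl
    · ext b
      have h3 := DFunLike.congr_fun hg b
      change s1 (theta τ (1 ⊗ₜ[A] b) g) = s2 b
      rw [theta_tmul, one_mul]
      exact h3
  · intro t ht
    obtain ⟨g', h, hh⟩ := exists_factor_pi t
    have h4 : h = s1 := by
      ext b
      have h5 := DFunLike.congr_fun ht (algebraMap B (B ⊗[A] B) b)
      change t (theta τ (algebraMap B (B ⊗[A] B) b)) = s1 b at h5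
      rw [AlgHom.commutes, hh] at h5
      exact h5
    subst h4
    have h6 : g' = g := by
      apply hgu
      ext b
      have h5 := DFunLike.congr_fun ht (Algebra.TensorProduct.includeRight b)
      change t (theta τ (1 ⊗ₜ[A] b)) = s2 b at h5
      rw [hh, theta_tmul, one_mul] at h5
      exact h5
    subst h6
    ext x
    exact hh x

end

section

variable {A B : Type u} {G : Type v} [CommRing A] [CommRing B] [Algebra A B]
  [Finite G] [Algebra.Etale A B]

/-- `A = B^G` for an action that is simply transitive on geometric fibres, `B` being finite etale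
and faithfully flat over `A`. -/
theorem mem_range_of_forall_eq [Module.FaithfullyFlat A B] (τ : G → (B →ₐ[A] B))
    (hτ : ∀ (Ω : Type u) [Field Ω] [IsAlgClosed Ω] (s t : B →+* Ω),
      s.comp (algebraMap A B) = t.comp (algebraMap A B) →
        ∃! g : G, s.comp (τ g).toRingHom = t)
    (b : B) (hb : ∀ g, τ g b = b) : ∃ a : A, algebraMap A B a = b := by
  let e : ULift.{u} (Fin (Nat.card G)) ≃ G := Equiv.ulift.trans (Finite.equivFin G).symm
  have h1 : b ⊗ₜ[A] (1 : B) = 1 ⊗ₜ[A] b := by
    apply (theta_bijective (fun i => τ (e i)) (fun Ω _ _ s t hst => by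
      obtain ⟨g, hg, hgu⟩ := hτ Ω s t hst
      refine ⟨e.symm g, by simpa using hg, fun i hi => ?_⟩
      rw [← hgu (e i) hi, Equiv.symm_apply_apply])).1
    funext g
    rw [theta_tmul, theta_tmul, map_one, hb, mul_one, one_mul]
  have h2 := (Algebra.IsEffective.of_faithfullyFlat A B) b
  exact h2.1 (by rw [Algebra.TensorProduct.includeLeftSubRight_apply, h1, sub_self])

end

end Groth.Agent.Pi1.H420.InvariantAlg
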