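import Mathlib.RingTheory.RootsOfUnity.Basic
import Mathlib.RingTheory.RootsOfUnity.PrimitiveRoots
import Mathlib.RingTheory.LocalRing.ResidueField.Basic
import Mathlib.Algebra.Ring.GeomSum

/-!
# Roots of unity in a local ring in which `n` is invertible

* `eq_one_of_residue_eq_one`: an `n`-th root of unity congruent to `1` is `1`.
* `isUnit_sub_one`: `ζ - 1` is a unit for `ζ ≠ 1`.
* `finite_rootsOfUnity`.
* `sum_pow_eq_zero`, `sum_rootsOfUnity_eq_zero`: orthogonality.
-/

set_option autoImplicit false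

universe u

namespace Groth.Agent.Pi1.H420.RootsLocal

variable {A : Type u} [CommRing A] [IsLocalRing A] {n : ℕ} (hn : IsUnit (n : A))

include hn

lemma eq_one_of_residue_eq_one {x : A} (hx : x ^ n = 1) (h : IsLocalRing.residue A x = 1) :
    x = 1 := by
  have h1 : (∑ i ∈ Finset.range n, x ^ i) * (x - 1) = 0 := by
    rw [geom_sum_mul, hx, sub_self]
  have h2 : IsUnit (∑ i ∈ Finset.range n, x ^ i) := by
    rw [← IsLocalRing.residue_ne_zero_iff_isUnit, map_sum]
    simp only [map_pow, h, one_pow, Finset.sum_const, Finset.card_range, nsmul_eq_mul, mul_one]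
    have := (IsLocalRing.residue_ne_zero_iff_isUnit (n : A)).2 hn
    rwa [map_natCast] at this
  exact sub_eq_zero.1 (h2.mul_right_eq_zero.1 h1)

lemma isUnit_sub_one {x : A} (hx : x ^ n = 1) (h : x ≠ 1) : IsUnit (x - 1) := by
  rw [← IsLocalRing.residue_ne_zero_iff_isUnit, map_sub, map_one, sub_ne_zero]
  exact fun h' => h (eq_one_of_residue_eq_one hn hx h')

lemma residue_injective : Function.Injective
    (fun x : rootsOfUnity n A => IsLocalRing.residue A ((x : Aˣ) : A)) := by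
  intro x y hxy
  have h1 : (((x * y⁻¹ : rootsOfUnity n A) : Aˣ) : A) = 1 := by
    apply eq_one_of_residue_eq_one hn
    · exact (mem_rootsOfUnity' n _).1 (x * y⁻¹).2
    · have h2 : IsLocalRing.residue A (((y * y⁻¹ : rootsOfUnity n A) : Aˣ) : A) = 1 := by
        simp
      rw [← h2]
      simp only [Subgroup.coe_mul, Units.val_mul, map_mul]
      exact congrArg (· * _) hxy
  have h2 : x * y⁻¹ = 1 := by
    apply Subtype.ext
    apply Units.ext
    exact h1
  exact mul_inv_eq_one.1 h2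

lemma finite_rootsOfUnity (hn1 : 1 ≤ n) : Finite (rootsOfUnity n A) := by
  have : NeZero n := ⟨by omega⟩
  have hf : Set.Finite {x : IsLocalRing.ResidueField A | x ^ n = 1} := by
    classical
    have := (Polynomial.nthRoots n (1 : IsLocalRing.ResidueField A)).toFinset.finite_toSet
    refine this.subset ?_
    intro x hx
    simp only [Finset.mem_coe, Multiset.mem_toFinset]
    rw [Polynomial.mem_nthRoots (by omega)]
    exact hx
  have : Finite {x : IsLocalRing.ResidueField A | x ^ n = 1} := hf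
  refine Finite.of_injective (β := {x : IsLocalRing.ResidueField A | x ^ n = 1})
    (fun x : rootsOfUnity n A => ⟨IsLocalRing.residue A ((x : Aˣ) : A), ?_⟩) ?_
  · have := (mem_rootsOfUnity' n _).1 x.2
    change IsLocalRing.residue A ((x : Aˣ) : A) ^ n = 1
    rw [← map_pow, this, map_one]
  · intro x y hxy
    exact residue_injective hn (congrArg Subtype.val hxy)

lemma geom_sum_eq_zero {x : A} (hx : x ^ n = 1) (h : x ≠ 1) : ∑ i ∈ Finset.range n, x ^ i = 0 := by
  have h1 : (∑ i ∈ Finset.range n, x ^ i) * (x - 1) = 0 := by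
    rw [geom_sum_mul, hx, sub_self]
  exact (isUnit_sub_one hn hx h).mul_left_eq_zero.1 h1

lemma isPrimitiveRoot_residue {ζ₀ : A} (hζ₀ : IsPrimitiveRoot ζ₀ n) :
    IsPrimitiveRoot (IsLocalRing.residue A ζ₀) n where
  pow_eq_one := by rw [← map_pow, hζ₀.pow_eq_one, map_one]
  dvd_of_pow_eq_one l hl := by
    apply hζ₀.dvd_of_pow_eq_one
    apply eq_one_of_residue_eq_one hn
    · rw [← pow_mul, mul_comm, pow_mul, hζ₀.pow_eq_one, one_pow]
    · rw [map_pow, hl]

lemma exists_pow_eq {ζ₀ : A} (hζ₀ : IsPrimitiveRoot ζ₀ n) (hn1 : 1 ≤ n) {x : A} (hx : x ^ n = 1) :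
    ∃ i < n, ζ₀ ^ i = x := by
  have : NeZero n := ⟨by omega⟩
  obtain ⟨i, hi, h⟩ := (isPrimitiveRoot_residue hn hζ₀).eq_pow_of_pow_eq_one
    (ξ := IsLocalRing.residue A x) (by rw [← map_pow, hx, map_one])
  refine ⟨i, hi, ?_⟩
  have h1 := residue_injective hn
    (a₁ := (rootsOfUnity.mkOfPowEq ζ₀ hζ₀.pow_eq_one) ^ i) (a₂ := rootsOfUnity.mkOfPowEq x hx) (by
      simp only [Subgroup.coe_pow, Units.val_pow_eq_pow_val, rootsOfUnity.coe_mkOfPowEq, map_pow, h])
  have h2 := congrArg (fun z : rootsOfUnity n A => ((z : Aˣ) : A)) h1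
  simpa only [Subgroup.coe_pow, Units.val_pow_eq_pow_val, rootsOfUnity.coe_mkOfPowEq] using h2

lemma card_rootsOfUnity {ζ₀ : A} (hζ₀ : IsPrimitiveRoot ζ₀ n) (hn1 : 1 ≤ n)
    [Fintype (rootsOfUnity n A)] : Fintype.card (rootsOfUnity n A) = n := by
  have : NeZero n := ⟨by omega⟩
  let g : rootsOfUnity n A := rootsOfUnity.mkOfPowEq ζ₀ hζ₀.pow_eq_one
  have hg : ∀ i : ℕ, (((g ^ i : rootsOfUnity n A) : Aˣ) : A) = ζ₀ ^ i := by
    intro i
    rw [Subgroup.coe_pow, Units.val_pow_eq_pow_val, rootsOfUnity.coe_mkOfPowEq]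
  have hbij : Function.Bijective (fun i : Fin n => g ^ (i : ℕ)) := by
    constructor
    · intro i j hij
      have h6 : g ^ (i : ℕ) = g ^ (j : ℕ) := hij
      exact Fin.ext (hζ₀.pow_inj i.2 j.2 (by rw [← hg, ← hg, h6]))
    · intro ζ
      obtain ⟨i, hi, h⟩ := exists_pow_eq hn hζ₀ hn1 ((mem_rootsOfUnity' n _).1 ζ.2)
      refine ⟨⟨i, hi⟩, ?_⟩
      apply Subtype.ext
      apply Units.ext
      rw [hg, h]
  rw [← Fintype.card_of_bijective hbij, Fintype.card_fin]

end Groth.Agent.Pi1.H420.RootsLocal
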