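import Groth.Prelude.Def_SGA1t
import Groth.Agent.Pi1.H420.RootsLocal
import Mathlib.RingTheory.Flat.FaithfullyFlat.Algebra
import Mathlib.LinearAlgebra.LinearIndependent.Basic

/-!
# Kummer theory over a local ring, algebraic form
-/

set_option autoImplicit false

universe u

namespace Groth.Agent.Pi1.H420.KummerAlg

open Groth.Agent.Pi1.H420.RootsLocal

section Generators

variable (A : Type u) [CommRing A] (a : A) (n : ℕ)

/-- The one-variable Kummer algebra. -/
noncomputable abbrev K : Type u := SGA1t.kummer A (fun _ : Unit => a) (fun _ => n)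

/-- The class of `T`. -/
noncomputable def T : K A a n := Ideal.Quotient.mk _ (MvPolynomial.X ())

lemma T_pow : (T A a n) ^ n = algebraMap A (K A a n) a := by
  have h1 : (Ideal.Quotient.mk (Ideal.span (Set.range fun i : Unit =>
      (MvPolynomial.X i : MvPolynomial Unit A) ^ n - MvPolynomial.C a)))
      (MvPolynomial.X () ^ n - MvPolynomial.C a) = 0 :=
    Ideal.Quotient.eq_zero_iff_mem.2 (Ideal.subset_span ⟨(), rfl⟩)
  rw [map_sub, map_pow, sub_eq_zero] at h1
  exact h1

variable {A a n}

/-- Every element of the Kummer algebra is a combination of the powers `T ^ i`, `i < n`. -/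
lemma exists_sum (hn : 1 ≤ n) (x : K A a n) :
    ∃ c : Fin n → A, x = ∑ i, c i • (T A a n) ^ (i : ℕ) := by
  have h0 : x ∈ Submodule.span A (Set.range fun i : Fin n => (T A a n) ^ (i : ℕ)) := by
    obtain ⟨p, rfl⟩ := Ideal.Quotient.mk_surjective x
    have hpow : ∀ m : ℕ, (T A a n) ^ m ∈
        Submodule.span A (Set.range fun i : Fin n => (T A a n) ^ (i : ℕ)) := by
      intro m
      have h1 : (T A a n) ^ m = (a ^ (m / n)) • (T A a n) ^ (m % n) := by
        conv_lhs => rw [← Nat.div_add_mod m n]
        rw [pow_add, pow_mul, T_pow, ← map_pow, ← Algebra.smul_def]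
      rw [h1]
      exact Submodule.smul_mem _ _ (Submodule.subset_span ⟨⟨m % n, Nat.mod_lt _ hn⟩, rfl⟩)
    induction p using MvPolynomial.induction_on' with
    | monomial m r =>
      have h2 : (Ideal.Quotient.mk (Ideal.span (Set.range fun i : Unit =>
          (MvPolynomial.X i : MvPolynomial Unit A) ^ n - MvPolynomial.C a)))
          (MvPolynomial.monomial m r) = r • (T A a n) ^ (m ()) := by
        rw [MvPolynomial.monomial_eq, map_mul, Finsupp.prod_fintype _ _ (fun _ => pow_zero _)]
        simp only [Finset.univ_unique, Finset.prod_singleton, map_pow]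
        exact (Algebra.smul_def (A := K A a n) r ((T A a n) ^ (m ()))).symm
      rw [h2]
      exact Submodule.smul_mem _ _ (hpow _)
    | add p q hp hq =>
      rw [map_add]
      exact Submodule.add_mem _ hp hq
  obtain ⟨c, hc⟩ := (Submodule.mem_span_range_iff_exists_fun A).1 h0
  exact ⟨c, hc.symm⟩

/-- `kummerTwist` sends `T` to `ζ T`. -/
lemma twist_T (ζ : rootsOfUnity n A) :
    SGA1t.kummerTwist A (fun _ : Unit => a) (fun _ => n) (fun _ => ζ) (T A a n) =
      ((ζ : Aˣ) : A) • T A a n := by
  rw [T, SGA1t.kummerTwist]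
  erw [Ideal.Quotient.lift_mk]
  rw [RingHom.comp_apply]
  erw [MvPolynomial.aeval_X]
  rw [map_mul]
  exact (Algebra.smul_def (A := K A a n) ((ζ : Aˣ) : A) (T A a n)).symm

lemma twist_algebraMap (ζ : rootsOfUnity n A) (r : A) :
    SGA1t.kummerTwist A (fun _ : Unit => a) (fun _ => n) (fun _ => ζ) (algebraMap A (K A a n) r) =
      algebraMap A (K A a n) r := by
  change SGA1t.kummerTwist A (fun _ : Unit => a) (fun _ => n) (fun _ => ζ)
    (Ideal.Quotient.mk _ (MvPolynomial.C r)) = _
  rw [SGA1t.kummerTwist]
  erw [Ideal.Quotient.lift_mk]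
  rw [RingHom.comp_apply]
  erw [MvPolynomial.aeval_C]
  rfl

lemma twist_smul (ζ : rootsOfUnity n A) (r : A) (x : K A a n) :
    SGA1t.kummerTwist A (fun _ : Unit => a) (fun _ => n) (fun _ => ζ) (r • x) =
      r • SGA1t.kummerTwist A (fun _ : Unit => a) (fun _ => n) (fun _ => ζ) x := by
  have h1 : (r • x : K A a n) = algebraMap A (K A a n) r * x := Algebra.smul_def r x
  rw [h1, map_mul, twist_algebraMap]
  exact (Algebra.smul_def (A := K A a n) r _).symm

/-- The algebra map out of the Kummer algebra attached to an `n`-th root of `a`. -/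
noncomputable def lift {B : Type u} [CommRing B] [Algebra A B] (t : B)
    (ht : t ^ n = algebraMap A B a) : K A a n →ₐ[A] B :=
  Ideal.Quotient.liftₐ _ (MvPolynomial.aeval (fun _ : Unit => t)) (by
    intro x hx
    have hle : Ideal.span (Set.range fun i : Unit => (MvPolynomial.X i : MvPolynomial Unit A) ^ n -
        MvPolynomial.C a) ≤ RingHom.ker (MvPolynomial.aeval (R := A) (fun _ : Unit => t)).toRingHom := by
      rw [Ideal.span_le]
      rintro _ ⟨i, rfl⟩
      simp [RingHom.mem_ker, ht]
    exact hle hx)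

lemma lift_T {B : Type u} [CommRing B] [Algebra A B] (t : B)
    (ht : t ^ n = algebraMap A B a) : lift t ht (T A a n) = t := by
  rw [T, lift]
  erw [Ideal.Quotient.liftₐ_apply]
  erw [Ideal.Quotient.lift_mk]
  exact MvPolynomial.aeval_X _ _

end Generators

end Groth.Agent.Pi1.H420.KummerAlg
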