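import Groth.Agent.Pi1.H420.KummerAlg

/-!
# Kummer theory over a local ring: the Lagrange resolvent
-/

set_option autoImplicit false

universe u

namespace Groth.Agent.Pi1.H420.KummerMain

open Groth.Agent.Pi1.H420.RootsLocal Groth.Agent.Pi1.H420.KummerAlg

variable {A B : Type u} [CommRing A] [CommRing B] [Algebra A B] {n : ℕ}

/-- The resolvent `Σ_ζ ζ⁻ʲ τ_ζ(b)`. -/
noncomputable def E [Fintype (rootsOfUnity n A)] (τ : rootsOfUnity n A → (B →ₐ[A] B)) (j : ℕ)
    (b : B) : B :=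
  ∑ ζ : rootsOfUnity n A, (((ζ⁻¹ ^ j : rootsOfUnity n A) : Aˣ) : A) • τ ζ b

lemma tau_E [Fintype (rootsOfUnity n A)] (τ : rootsOfUnity n A → (B →ₐ[A] B))
    (hτm : ∀ g h, τ (g * h) = (τ h).comp (τ g)) (j : ℕ) (b : B) (η : rootsOfUnity n A) :
    τ η (E τ j b) = (((η ^ j : rootsOfUnity n A) : Aˣ) : A) • E τ j b := by
  rw [E, map_sum, Finset.smul_sum]
  refine Fintype.sum_equiv (Equiv.mulRight η) _ _ fun ζ => ?_
  rw [map_smul, Equiv.coe_mulRight, hτm, AlgHom.comp_apply, smul_smul]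
  congr 1
  rw [← Units.val_mul, ← Subgroup.coe_mul]
  congr 2
  rw [mul_inv, mul_pow, inv_pow η, mul_comm (ζ⁻¹ ^ j), mul_inv_cancel_left]

lemma sum_E [IsLocalRing A] [Fintype (rootsOfUnity n A)] (hn : IsUnit (n : A))
    (τ : rootsOfUnity n A → (B →ₐ[A] B))
    (hτ1 : τ 1 = AlgHom.id A B) (b : B) :
    ∑ j ∈ Finset.range n, E τ j b = (n : A) • b := by
  simp only [E]
  rw [Finset.sum_comm]
  have h1 : ∀ ζ : rootsOfUnity n A, ζ ≠ 1 →
      ∑ j ∈ Finset.range n, (((ζ⁻¹ ^ j : rootsOfUnity n A) : Aˣ) : A) • τ ζ b = 0 := by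
    intro ζ hζ
    rw [← Finset.sum_smul]
    have h2 : ∑ j ∈ Finset.range n, (((ζ⁻¹ ^ j : rootsOfUnity n A) : Aˣ) : A) = 0 := by
      have h3 := geom_sum_eq_zero hn (x := (((ζ⁻¹ : rootsOfUnity n A) : Aˣ) : A))
        ((mem_rootsOfUnity' n _).1 (ζ⁻¹).2) (by
          intro h
          apply hζ
          rw [← inv_eq_one]
          apply Subtype.ext
          apply Units.ext
          exact h)
      rw [← h3]
      refine Finset.sum_congr rfl fun j _ => ?_
      rw [Subgroup.coe_pow, Units.val_pow_eq_pow_val]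
    rw [h2, zero_smul]
  rw [Fintype.sum_eq_single (1 : rootsOfUnity n A) h1]
  simp [hτ1, Nat.cast_smul_eq_nsmul]

/-- Dedekind's lemma: some resolvent does not vanish at a given geometric point. -/
lemma exists_resolvent [Fintype (rootsOfUnity n A)] (τ : rootsOfUnity n A → (B →ₐ[A] B))
    {Ω : Type u} [Field Ω] (s : B →+* Ω)
    (hs : ∀ g h, s.comp (τ g).toRingHom = s.comp (τ h).toRingHom → g = h) :
    ∃ b, s (E τ 1 b) ≠ 0 := by
  by_contra! hc
  have hli := (linearIndependent_monoidHom B Ω).comp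
    (fun g : rootsOfUnity n A => ((s.comp (τ g).toRingHom : B →+* Ω) : B →* Ω)) (by
      intro g h hgh
      apply hs
      ext b
      exact DFunLike.congr_fun hgh b)
  rw [Fintype.linearIndependent_iff] at hli
  have h1 := hli (fun ζ => s (algebraMap A B (((ζ⁻¹ : rootsOfUnity n A) : Aˣ) : A))) (by
    funext b
    have h2 := hc b
    rw [E, map_sum] at h2
    simp only [pow_one, Algebra.smul_def, map_mul] at h2
    simpa using h2) 1
  simp at h1

/-- If `x` is a combination of powers of a unit eigenvector then the resolvents recover the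
coefficients. -/
lemma E_pow [IsLocalRing A] [Fintype (rootsOfUnity n A)] (hn : IsUnit (n : A)) (ζ₀ : A)
    (hζ₀ : IsPrimitiveRoot ζ₀ n) (hn1 : 1 ≤ n) (τ : rootsOfUnity n A → (B →ₐ[A] B)) (t : B)
    (ht : ∀ ζ : rootsOfUnity n A, τ ζ t = ((ζ : Aˣ) : A) • t) (i j : ℕ) (hi : i < n) (hj : j < n)
    (hij : i ≠ j) : E τ j (t ^ i) = 0 := by
  have h1 : ∀ ζ : rootsOfUnity n A, (((ζ⁻¹ ^ j : rootsOfUnity n A) : Aˣ) : A) • τ ζ (t ^ i) =
      (((ζ⁻¹ ^ j * ζ ^ i : rootsOfUnity n A) : Aˣ) : A) • t ^ i := by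
    intro ζ
    rw [map_pow, ht, smul_pow, smul_smul]
    simp
  rw [E, Finset.sum_congr rfl (fun ζ _ => h1 ζ), ← Finset.sum_smul]
  have h2 : ∑ ζ : rootsOfUnity n A, (((ζ⁻¹ ^ j * ζ ^ i : rootsOfUnity n A) : Aˣ) : A) = 0 := by
    have : NeZero n := ⟨by omega⟩
    let g : rootsOfUnity n A := rootsOfUnity.mkOfPowEq ζ₀ hζ₀.pow_eq_one
    have hg : ((g : Aˣ) : A) = ζ₀ := rootsOfUnity.coe_mkOfPowEq _
    let S := ∑ ζ : rootsOfUnity n A, (((ζ⁻¹ ^ j * ζ ^ i : rootsOfUnity n A) : Aˣ) : A)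
    have h3 : S = (((g⁻¹ ^ j * g ^ i : rootsOfUnity n A) : Aˣ) : A) * S := by
      simp only [S]
      rw [Finset.mul_sum]
      symm
      refine Fintype.sum_equiv (Equiv.mulLeft g) _ _ fun ζ => ?_
      rw [← Units.val_mul, ← Subgroup.coe_mul]
      congr 2
      simp only [Equiv.coe_mulLeft, mul_inv, mul_pow]
      rw [mul_mul_mul_comm]
    have h4 : (((g⁻¹ ^ j * g ^ i : rootsOfUnity n A) : Aˣ) : A) ≠ 1 := by
      intro h
      have h5 : g⁻¹ ^ j * g ^ i = 1 := by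
        apply Subtype.ext
        apply Units.ext
        exact h
      have h6 : g ^ i = g ^ j := by
        rw [inv_pow, inv_mul_eq_one] at h5
        exact h5.symm
      have h7 : ζ₀ ^ i = ζ₀ ^ j := by
        rw [← hg, ← Units.val_pow_eq_pow_val, ← Units.val_pow_eq_pow_val, ← Subgroup.coe_pow,
          ← Subgroup.coe_pow, h6]
      exact hij (hζ₀.pow_inj hi hj h7)
    have h5 := isUnit_sub_one hn ((mem_rootsOfUnity' n _).1 (g⁻¹ ^ j * g ^ i).2) h4
    have h6 : ((((g⁻¹ ^ j * g ^ i : rootsOfUnity n A) : Aˣ) : A) - 1) * S = 0 := by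
      rw [sub_mul, ← h3, one_mul, sub_self]
    exact h5.mul_right_eq_zero.1 h6
  rw [h2, zero_smul]

end Groth.Agent.Pi1.H420.KummerMain
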