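import Groth.Agent.Pi1.H420.KummerMain
import Groth.Agent.Pi1.H420.InvariantAlg

/-!
# Kummer theory over a local ring: the main algebraic theorem
-/

set_option autoImplicit false

universe u

namespace Groth.Agent.Pi1.H420.KummerThm

open Groth.Agent.Pi1.H420.RootsLocal Groth.Agent.Pi1.H420.KummerAlg
  Groth.Agent.Pi1.H420.KummerMain

variable {A B : Type u} [CommRing A] [IsLocalRing A] [CommRing B] [Algebra A B] {n : ℕ}

/-- Kummer theory over a local ring, algebraic form. -/
theorem exists_kummer (hn1 : 1 ≤ n) (hn : IsUnit (n : A)) (ζ₀ : A) (hζ₀ : IsPrimitiveRoot ζ₀ n)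
    [Module.FaithfullyFlat A B]
    (τ : rootsOfUnity n A → (B →ₐ[A] B)) (hτ1 : τ 1 = AlgHom.id A B)
    (hτm : ∀ g h, τ (g * h) = (τ h).comp (τ g))
    (hτ : ∀ (Ω : Type u) [Field Ω] [IsAlgClosed Ω] (s t : B →+* Ω),
      s.comp (algebraMap A B) = t.comp (algebraMap A B) →
        ∃! g : rootsOfUnity n A, s.comp (τ g).toRingHom = t)
    (hinv : ∀ b : B, (∀ g, τ g b = b) → ∃ a : A, algebraMap A B a = b) :
    ∃ (a : Aˣ) (φ : K A (a : A) n ≃ₐ[A] B), ∀ (ζ : rootsOfUnity n A) (x : K A (a : A) n),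
      τ ζ (φ x) = φ (SGA1t.kummerTwist A (fun _ : Unit => (a : A)) (fun _ => n) (fun _ => ζ) x) := by
  have hfin : Finite (rootsOfUnity n A) := finite_rootsOfUnity hn hn1
  have : Fintype (rootsOfUnity n A) := Fintype.ofFinite _
  -- a geometric point over the closed point
  obtain ⟨Ω, _, _, s, hs⟩ : ∃ (Ω : Type u) (_ : Field Ω) (_ : IsAlgClosed Ω) (s : B →+* Ω),
      ∀ a : A, s (algebraMap A B a) ≠ 0 → IsUnit a := by
    obtain ⟨M, hM⟩ := (PrimeSpectrum.comap_surjective_of_faithfullyFlat (A := A) (B := B))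
      (IsLocalRing.closedPoint A)
    let Ω : Type u := AlgebraicClosure M.asIdeal.ResidueField
    refine ⟨Ω, inferInstance, inferInstance, algebraMap B Ω, fun a ha => ?_⟩
    by_contra hau
    apply ha
    have h1 : a ∈ (IsLocalRing.closedPoint A).asIdeal := hau
    rw [← hM] at h1
    have h2 : algebraMap A B a ∈ M.asIdeal := h1
    rw [IsScalarTower.algebraMap_apply B M.asIdeal.ResidueField Ω,
      Ideal.algebraMap_residueField_eq_zero.2 h2, map_zero]
  -- the Lagrange resolvent
  obtain ⟨b, hb⟩ := exists_resolvent τ s (fun g h hgh => by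
    obtain ⟨g', -, hg'⟩ := hτ Ω s (s.comp (τ h).toRingHom) (by
      rw [RingHom.comp_assoc]
      congr 1
      exact ((τ h).comp_algebraMap).symm)
    rw [hg' g hgh, hg' h rfl])
  let t : B := E τ 1 b
  have ht : ∀ ζ : rootsOfUnity n A, τ ζ t = ((ζ : Aˣ) : A) • t := by
    intro ζ
    have := tau_E τ hτm 1 b ζ
    rwa [pow_one] at this
  have hroot : ∀ ζ : rootsOfUnity n A, ((ζ : Aˣ) : A) ^ n = 1 :=
    fun ζ => (mem_rootsOfUnity' n _).1 ζ.2
  obtain ⟨a, ha⟩ := hinv (t ^ n) (fun ζ => by
    rw [map_pow, ht, smul_pow, hroot, one_smul])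
  have hau : IsUnit a := by
    apply hs
    rw [ha, map_pow]
    exact pow_ne_zero _ hb
  obtain ⟨a, rfl⟩ := hau
  have htu : IsUnit t := by
    have h1 : IsUnit (t ^ n) := by
      rw [← ha]
      exact a.isUnit.map (algebraMap A B)
    exact (isUnit_pow_iff (by omega)).1 h1
  have hφT : lift t ha.symm (T A (a : A) n) = t := lift_T t ha.symm
  have hinj : Function.Injective (algebraMap A B) := FaithfulSMul.algebraMap_injective A B
  have hbij : Function.Bijective (lift (a := (a : A)) (n := n) t ha.symm) := by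
    constructor
    · rw [injective_iff_map_eq_zero]
      intro x hx
      obtain ⟨c, rfl⟩ := exists_sum hn1 x
      have hc : ∀ j, c j = 0 := by
        intro j
        rw [map_sum] at hx
        simp only [map_smul, map_pow, hφT] at hx
        have h1 : E τ (j : ℕ) (∑ i, c i • t ^ (i : ℕ)) = (n : A) • (c j • t ^ (j : ℕ)) := by
          have h2 : E τ (j : ℕ) (∑ i, c i • t ^ (i : ℕ)) =
              ∑ i, c i • E τ (j : ℕ) (t ^ (i : ℕ)) := by
            simp only [E, map_sum, map_smul, Finset.smul_sum]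
            rw [Finset.sum_comm]
            refine Finset.sum_congr rfl fun i _ => Finset.sum_congr rfl fun ζ _ => ?_
            rw [smul_comm]
          rw [h2, Finset.sum_eq_single j]
          · have h3 : E τ (j : ℕ) (t ^ (j : ℕ)) = (n : A) • t ^ (j : ℕ) := by
              have h4 : ∀ ζ : rootsOfUnity n A,
                  (((ζ⁻¹ ^ (j : ℕ) : rootsOfUnity n A) : Aˣ) : A) • τ ζ (t ^ (j : ℕ)) =
                    t ^ (j : ℕ) := by
                intro ζ
                rw [map_pow, ht, smul_pow, smul_smul]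
                simp [← mul_pow]
              have hcard := card_rootsOfUnity hn hζ₀ hn1
              rw [E, Finset.sum_congr rfl (fun ζ _ => h4 ζ), Finset.sum_const, Finset.card_univ,
                hcard, Nat.cast_smul_eq_nsmul]
            rw [h3, smul_comm]
          · intro i _ hij
            rw [E_pow hn ζ₀ hζ₀ hn1 τ t ht i j i.2 j.2 (fun h => hij (Fin.ext h)), smul_zero]
          · intro h; exact absurd (Finset.mem_univ j) h
        rw [hx] at h1
        have h5 : E τ (j : ℕ) 0 = 0 := by simp [E]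
        rw [h5, smul_smul, Algebra.smul_def] at h1
        have h6 : algebraMap A B ((n : A) * c j) = 0 := (htu.pow _).mul_left_eq_zero.1 h1.symm
        rw [map_eq_zero_iff _ hinj] at h6
        exact hn.mul_right_eq_zero.1 h6
      simp [hc]
    · intro x
      have h1 : ∀ j : ℕ, ∃ c : A, E τ j x = c • t ^ j := by
        intro j
        obtain ⟨u, hu⟩ := htu.pow j
        obtain ⟨c, hc⟩ := hinv (E τ j x * ((u⁻¹ : Bˣ) : B)) (fun ζ => by
          rw [map_mul, tau_E τ hτm]
          have h2 : τ ζ ((u⁻¹ : Bˣ) : B) = (((ζ⁻¹ ^ j : rootsOfUnity n A) : Aˣ) : A) •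
              ((u⁻¹ : Bˣ) : B) := by
            have h3 : τ ζ (u : B) * τ ζ ((u⁻¹ : Bˣ) : B) = 1 := by
              rw [← map_mul, Units.mul_inv, map_one]
            rw [hu, map_pow, ht, smul_pow, ← hu] at h3
            have h4 : (((ζ⁻¹ ^ j : rootsOfUnity n A) : Aˣ) : A) • (((ζ : Aˣ) : A) ^ j • (u : B) *
                τ ζ ((u⁻¹ : Bˣ) : B)) = (u : B) * τ ζ ((u⁻¹ : Bˣ) : B) := by
              rw [smul_mul_assoc, smul_smul]
              simp [← mul_pow]
            have h5 : (u : B) * τ ζ ((u⁻¹ : Bˣ) : B) =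
                (((ζ⁻¹ ^ j : rootsOfUnity n A) : Aˣ) : A) • 1 := by
              rw [← h4, h3]
            calc τ ζ ((u⁻¹ : Bˣ) : B) = ((u⁻¹ : Bˣ) : B) * ((u : B) * τ ζ ((u⁻¹ : Bˣ) : B)) := by
                  rw [Units.inv_mul_cancel_left]
              _ = _ := by rw [h5, mul_smul_comm, mul_one]
          rw [h2, smul_mul_smul_comm, ← Units.val_mul, ← Subgroup.coe_mul]
          simp)
        refine ⟨c, ?_⟩
        rw [Algebra.smul_def, hc, ← hu, Units.inv_mul_cancel_right]
      choose c hc using h1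
      obtain ⟨v, hv⟩ := hn
      refine ⟨((v⁻¹ : Aˣ) : A) • ∑ j ∈ Finset.range n, c j • (T A (a : A) n) ^ j, ?_⟩
      rw [map_smul, map_sum]
      simp only [map_smul, map_pow, hφT]
      rw [← Finset.sum_congr rfl (fun j _ => hc j), sum_E ⟨v, hv⟩ τ hτ1, smul_smul, ← hv,
        Units.inv_mul, one_smul]
  refine ⟨a, AlgEquiv.ofBijective _ hbij, fun ζ x => ?_⟩
  obtain ⟨c, rfl⟩ := exists_sum hn1 x
  change τ ζ (lift t ha.symm _) = lift t ha.symm _
  simp only [map_sum]
  refine Finset.sum_congr rfl fun i _ => ?_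
  rw [map_smul, map_smul, map_pow, map_pow, hφT, ht, twist_smul, map_pow, twist_T, map_smul,
    map_pow, map_smul, hφT]

end Groth.Agent.Pi1.H420.KummerThm
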