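import Groth.Prelude.Def_SGA1t
import Groth.Agent.Pi1.H420.InvariantAlg
import Groth.Agent.Pi1A.FEtAffine
import Mathlib.AlgebraicGeometry.Morphisms.UnderlyingMap

/-!
# Principal covers of an affine scheme in terms of algebras

For a principal `G`-cover `P` of `Spec A` (`SGA1t.IsPrincipal`), `G` finite:

* `exists_algebra`: `P ≅ Spec B` with `B` finite etale and faithfully flat over `A`, and `A`-algebra
  endomorphisms `τ g` of `B` corresponding to `ρ g`, simply transitive on geometric fibres;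
  `τ (g * h) = τ h ∘ τ g`, `τ 1 = id`, and `A = B^G`.
-/

set_option autoImplicit false

universe u v

open CategoryTheory CategoryTheory.Limits AlgebraicGeometry

namespace Groth.Agent.Pi1.H420.PrincipalAffine

open Groth.Agent.Pi1A.FEtAffine Groth.Agent.Pi1.H420.InvariantAlg

variable {A : Type u} [CommRing A] {G : Type v} [Group G]

/-- A principal cover of an affine scheme as an algebra with operators. -/
theorem exists_algebra (P : FEt.Cat (Spec (CommRingCat.of A))) (ρ : G →* Aut P)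
    (hP : SGA1t.IsPrincipal G P ρ) :
    ∃ (B : Type u) (_ : CommRing B) (_ : Algebra A B) (_ : Module.Finite A B)
      (_ : Algebra.Etale A B) (_ : Module.FaithfullyFlat A B)
      (e : P ≅ ofAlgebra A B) (τ : G → (B →ₐ[A] B)),
      (∀ g, (ρ g).hom ≫ e.hom = e.hom ≫ homOfAlgHom (τ g)) ∧
      τ 1 = AlgHom.id A B ∧ (∀ g h, τ (g * h) = (τ h).comp (τ g)) ∧
      (∀ (Ω : Type u) [Field Ω] [IsAlgClosed Ω] (s t : B →+* Ω),
        s.comp (algebraMap A B) = t.comp (algebraMap A B) →
          ∃! g : G, s.comp (τ g).toRingHom = t) := by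
  obtain ⟨B, _, _, _, _, ⟨e⟩⟩ := exists_iso_ofAlgebra P
  let τ : G → (B →ₐ[A] B) := fun g => algHomOfHom (e.inv ≫ (ρ g).hom ≫ e.hom)
  have hτ : ∀ g, homOfAlgHom (τ g) = e.inv ≫ (ρ g).hom ≫ e.hom :=
    fun g => homOfAlgHom_algHomOfHom _
  obtain ⟨i, j, hij, hji, hi, hτi⟩ : ∃ (i : Spec (CommRingCat.of B) ⟶ P.left)
      (j : P.left ⟶ Spec (CommRingCat.of B)), i ≫ j = 𝟙 _ ∧ j ≫ i = 𝟙 _ ∧
      i ≫ P.hom = Spec.map (CommRingCat.ofHom (algebraMap A B)) ∧
      ∀ g, i ≫ (ρ g).hom.left = Spec.map (CommRingCat.ofHom (τ g).toRingHom) ≫ i := by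
    refine ⟨e.inv.left, e.hom.left, ?_, ?_, hom_w e.inv, ?_⟩
    · exact congrArg (fun f => f.left) e.inv_hom_id
    · exact congrArg (fun f => f.left) e.hom_inv_id
    · intro g
      have h1 : e.inv ≫ (ρ g).hom = homOfAlgHom (τ g) ≫ e.inv := by
        rw [hτ]; simp
      exact congrArg (fun f => f.left) h1
  have hsurj : Function.Surjective (PrimeSpectrum.comap (algebraMap A B)) := by
    have h1 : Function.Surjective (Spec.map (CommRingCat.ofHom (algebraMap A B))) := by
      intro x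
      obtain ⟨y, hy⟩ := hP.1 x
      refine ⟨j y, ?_⟩
      rw [← hy, ← hi, ← Scheme.Hom.comp_apply, reassoc_of% hji]
    exact h1
  have hff : Module.FaithfullyFlat A B := Module.FaithfullyFlat.of_comap_surjective hsurj
  refine ⟨B, inferInstance, inferInstance, inferInstance, inferInstance, hff, e, τ, ?_, ?_, ?_, ?_⟩
  · intro g
    rw [hτ, e.hom_inv_id_assoc]
  · apply homOfAlgHom_injective
    rw [hτ, homOfAlgHom_id, map_one]
    change e.inv ≫ 𝟙 P ≫ e.hom = _
    rw [Category.id_comp, e.inv_hom_id]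
  · intro g h
    apply homOfAlgHom_injective
    rw [homOfAlgHom_comp, hτ, hτ, hτ, map_mul, Aut.Aut_mul_def]
    change e.inv ≫ ((ρ h).hom ≫ (ρ g).hom) ≫ e.hom = _
    simp
  · intro Ω _ _ s t hst
    let ξ : Spec (CommRingCat.of Ω) ⟶ Spec (CommRingCat.of A) :=
      Spec.map (CommRingCat.ofHom (s.comp (algebraMap A B)))
    have hpt : ∀ r : B →+* Ω, r.comp (algebraMap A B) = s.comp (algebraMap A B) →
        (Spec.map (CommRingCat.ofHom r) ≫ i) ≫ P.hom = ξ := by
      intro r hr
      rw [Category.assoc, hi, ← Spec.map_comp, ← CommRingCat.ofHom_comp, hr]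
    let s' : FEt.fiberObj ξ P := ⟨_, hpt s rfl⟩
    let t' : FEt.fiberObj ξ P := ⟨_, hpt t hst.symm⟩
    have key : ∀ g : G, (FEt.fiber ξ).map (ρ g).hom s' = t' ↔ s.comp (τ g).toRingHom = t := by
      intro g
      have h1 : (FEt.fiber ξ).map (ρ g).hom s' = t' ↔
          (Spec.map (CommRingCat.ofHom s) ≫ i) ≫ (ρ g).hom.left =
            Spec.map (CommRingCat.ofHom t) ≫ i := Subtype.ext_iff
      rw [h1, Category.assoc, hτi, ← Category.assoc, ← Spec.map_comp, ← CommRingCat.ofHom_comp]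
      constructor
      · intro h
        have h4 := congrArg (fun f => f ≫ j) h
        simp only [Category.assoc, hij, Category.comp_id] at h4
        exact congrArg CommRingCat.Hom.hom (Spec.map_injective h4)
      · intro h
        rw [h]
    obtain ⟨g, hg, hgu⟩ := hP.2 Ω ξ s' t'
    exact ⟨g, (key g).1 hg, fun g' hg' => hgu g' ((key g').2 hg')⟩

/-- A principal cover of an affine scheme as an algebra with operators whose invariants are
the base ring. -/
theorem exists_algebra' [Finite G] (P : FEt.Cat (Spec (CommRingCat.of A))) (ρ : G →* Aut P)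
    (hP : SGA1t.IsPrincipal G P ρ) :
    ∃ (B : Type u) (_ : CommRing B) (_ : Algebra A B) (_ : Module.Finite A B)
      (_ : Algebra.Etale A B) (_ : Module.FaithfullyFlat A B)
      (e : P ≅ ofAlgebra A B) (τ : G → (B →ₐ[A] B)),
      (∀ g, (ρ g).hom ≫ e.hom = e.hom ≫ homOfAlgHom (τ g)) ∧
      τ 1 = AlgHom.id A B ∧ (∀ g h, τ (g * h) = (τ h).comp (τ g)) ∧
      (∀ (Ω : Type u) [Field Ω] [IsAlgClosed Ω] (s t : B →+* Ω),
        s.comp (algebraMap A B) = t.comp (algebraMap A B) →
          ∃! g : G, s.comp (τ g).toRingHom = t) ∧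
      (∀ b : B, (∀ g, τ g b = b) → ∃ a : A, algebraMap A B a = b) := by
  obtain ⟨B, _, _, _, _, _, e, τ, h1, h2, h3, h4⟩ := exists_algebra P ρ hP
  exact ⟨B, inferInstance, inferInstance, inferInstance, inferInstance, inferInstance, e, τ,
    h1, h2, h3, h4, mem_range_of_forall_eq τ h4⟩

end Groth.Agent.Pi1.H420.PrincipalAffine
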